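import Cfsg.Agent.Lib.Helper60.J3.FusData
import Cfsg.Agent.Lib.Helper86.SimpleGen
import Cfsg.Agent.Lib.Helper86.SemiDihedral

/-!
The 2-fusion system of a group in which the centraliser of an involution is the group with 1920
elements of the index tables, all involutions are conjugate and the order is 50232960, is simple.
-/

set_option autoImplicit false

namespace Cfsg.Agent.Lib.Helper60.J3

open Cfsg Cfsg.Agent.Lib.Helper86

theorem exists_sylow_of_card {G : Type*} [Group G] [Finite G] (s a : ℕ) [hs : Fact s.Prime]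
    (P : Subgroup G) (hP : Nat.card P = s ^ a) (hn : ¬ s ^ (a + 1) ∣ Nat.card G) :
    ∃ Q : Sylow s G, (Q : Subgroup G) = P := by
  have hpg : IsPGroup s P := IsPGroup.of_card hP
  obtain ⟨Q, hQ⟩ := hpg.exists_le_sylow
  refine ⟨Q, ?_⟩
  obtain ⟨k, hk⟩ := IsPGroup.iff_card.mp Q.isPGroup'
  have hQG : Nat.card (Q : Subgroup G) ∣ Nat.card G := Subgroup.card_subgroup_dvd_card _
  have hka : k ≤ a := by
    by_contra h
    apply hn
    rw [hk] at hQG
    exact dvd_trans (pow_dvd_pow s (by omega)) hQG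
  symm
  apply Subgroup.eq_of_le_of_card_ge hQ
  rw [hk, hP]
  exact Nat.pow_le_pow_right hs.out.pos hka

theorem bimp_of {a b : Bool} (h : (!a || b) = true) (ha : a = true) : b = true := by
  subst ha
  simpa using h

theorem blt_lt {a b : ℕ} (h : Nat.blt a b = true) : a < b := by
  simpa [Nat.blt_eq] using h

theorem fInv_spec (j : ℕ) (hj : j < 1920) :
    mulI j (fInv j) = 0 ∧ fInv j < 1920 ∧ (j < 32 → fInv j < 32) ∧
      (inP j = true → inP (fInv j) = true) := by
  have h := allBelow_spec chkInv 1920 chkInv_all j hj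
  unfold chkInv at h
  simp only [Bool.and_eq_true] at h
  obtain ⟨⟨⟨h1, h2⟩, h3⟩, h4⟩ := h
  refine ⟨Nat.eq_of_beq_eq_true h1, blt_lt h2, ?_, bimp_of h4⟩
  intro hlt
  have hb : Nat.blt j 32 = true := by simpa [Nat.blt_eq] using hlt
  exact blt_lt (bimp_of h3 hb)

theorem tree_spec (j : ℕ) (hj : j < 1920) (hj0 : j ≠ 0) :
    mulI (fPu j) (fPp j) = j ∧ mulI (fPu j) (fPu j) = 0 ∧ fPu j ≠ 0 ∧ fPu j < 1920 ∧
      fPp j < 1920 ∧ fRk (fPp j) < fRk j ∧
      (inP j = true → inP (fPu j) = true ∧ inP (fPp j) = true) := by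
  have h := allBelow_spec chkTree 1920 chkTree_all j hj
  unfold chkTree at h
  rw [Bool.or_eq_true] at h
  rcases h with h | h
  · exact absurd (Nat.eq_of_beq_eq_true h) hj0
  · simp only [Bool.and_eq_true] at h
    obtain ⟨⟨⟨⟨⟨⟨h1, h2⟩, h3⟩, h4⟩, h5⟩, h6⟩, h7⟩ := h
    refine ⟨Nat.eq_of_beq_eq_true h1, Nat.eq_of_beq_eq_true h2, ?_, blt_lt h4, blt_lt h5,
      blt_lt h6, ?_⟩
    · intro h0'
      rw [h0'] at h3
      exact absurd h3 (by decide)
    · intro hp
      have h8 := bimp_of h7 hp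
      rw [Bool.and_eq_true] at h8
      exact h8

theorem wq_spec (j : ℕ) (hj : j < 1920) (h : ∀ q < 32, mulI j q = mulI q j) : j < 32 := by
  have hc := allBelow_spec chkWq 1920 chkWq_all j hj
  unfold chkWq at hc
  rw [Bool.or_eq_true] at hc
  rcases hc with hc | hc
  · exact blt_lt hc
  · exfalso
    rw [Bool.and_eq_true] at hc
    obtain ⟨h1, h2⟩ := hc
    have h3 := h (fWq j) (blt_lt h1)
    rw [h3] at h2
    have h4 : Nat.beq (mulI (fWq j) j) (mulI (fWq j) j) = true := Nat.beq_refl _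
    rw [h4] at h2
    exact absurd h2 (by decide)

theorem norm_spec (j : ℕ) (hj : j < 1920) (q : ℕ) (hq : q < 32) :
    mulI (mulI j q) (fInv j) < 32 := by
  have h := allBelow_spec chkNorm 1920 chkNorm_all j hj
  unfold chkNorm at h
  exact blt_lt (allBelow_spec _ 32 h q hq)

theorem inP_iff (j : ℕ) :
    inP j = true ↔ (j / 32 = 0 ∨ j / 32 = 1 ∨ j / 32 = 58 ∨ j / 32 = 59) := by
  unfold inP
  simp only [Bool.or_eq_true]
  constructor
  · rintro (((h | h) | h) | h)
    · exact Or.inl (Nat.eq_of_beq_eq_true h)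
    · exact Or.inr (Or.inl (Nat.eq_of_beq_eq_true h))
    · exact Or.inr (Or.inr (Or.inl (Nat.eq_of_beq_eq_true h)))
    · exact Or.inr (Or.inr (Or.inr (Nat.eq_of_beq_eq_true h)))
  · rintro (h | h | h | h)
    · exact Or.inl (Or.inl (Or.inl (by rw [show Nat.div j 32 = 0 from h]; rfl)))
    · exact Or.inl (Or.inl (Or.inr (by rw [show Nat.div j 32 = 1 from h]; rfl)))
    · exact Or.inl (Or.inr (by rw [show Nat.div j 32 = 58 from h]; rfl))
    · exact Or.inr (by rw [show Nat.div j 32 = 59 from h]; rfl)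

theorem inP_of_lt (q : ℕ) (hq : q < 32) : inP q = true := by
  rw [inP_iff]
  left
  omega

theorem inP_mul (i j : ℕ) (hi : i < 1920) (hj : j < 1920) (h1 : inP i = true)
    (h2 : inP j = true) : inP (mulI i j) = true := by
  have ha : i / 32 < 60 := by omega
  have hb : j / 32 < 60 := by omega
  have e1 : ∀ a : ℕ, 32 * a / 32 = a := fun a => Nat.mul_div_cancel_left a (by norm_num)
  have h3 := inP_cl (i / 32) ha (j / 32) hb
    (by rw [inP_iff, e1]; exact (inP_iff i).mp h1)
    (by rw [inP_iff, e1]; exact (inP_iff j).mp h2)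
  rw [inP_iff, e1] at h3
  rw [inP_iff, mulI_div i j hi hj]
  exact h3

/-- the subgroup of the elements whose index satisfies a condition stable under the operations -/
def subOf {G : Type*} [Group G] (e : ℕ → G)
    (hmul : ∀ i < 1920, ∀ j < 1920, e i * e j = e (mulI i j)) (h0 : e 0 = 1) (pr : ℕ → Bool)
    (hpm : ∀ i < 1920, ∀ j < 1920, pr i = true → pr j = true → pr (mulI i j) = true)
    (hp0 : pr 0 = true) (hpi : ∀ i < 1920, pr i = true → pr (fInv i) = true) : Subgroup G where
  carrier := {g | ∃ j < 1920, pr j = true ∧ e j = g}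
  mul_mem' := by
    rintro a b ⟨i, hi, hpi', rfl⟩ ⟨j, hj, hpj, rfl⟩
    exact ⟨mulI i j, mulI_lt i j hi hj, hpm i hi j hj hpi' hpj, (hmul i hi j hj).symm⟩
  one_mem' := ⟨0, by norm_num, hp0, h0⟩
  inv_mem' := by
    rintro a ⟨i, hi, hpi', rfl⟩
    obtain ⟨h1, h2, -, -⟩ := fInv_spec i hi
    refine ⟨fInv i, h2, hpi i hi hpi', ?_⟩
    have h3 : e i * e (fInv i) = 1 := by rw [hmul i hi _ h2, h1, h0]
    exact eq_inv_of_mul_eq_one_right h3

theorem mem_subOf {G : Type*} [Group G] (e : ℕ → G)
    (hmul : ∀ i < 1920, ∀ j < 1920, e i * e j = e (mulI i j)) (h0 : e 0 = 1) (pr : ℕ → Bool)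
    (hpm : ∀ i < 1920, ∀ j < 1920, pr i = true → pr j = true → pr (mulI i j) = true)
    (hp0 : pr 0 = true) (hpi : ∀ i < 1920, pr i = true → pr (fInv i) = true) (g : G) :
    g ∈ subOf e hmul h0 pr hpm hp0 hpi ↔ ∃ j < 1920, pr j = true ∧ e j = g := Iff.rfl

section Fus
variable {G : Type*} [Group G] [Finite G] (e : ℕ → G)
  (hmul : ∀ i < 1920, ∀ j < 1920, e i * e j = e (mulI i j))
  (hinj : ∀ i < 1920, ∀ j < 1920, e i = e j → i = j)
  (h0 : e 0 = 1)
  (hcard : Nat.card (Subgroup.centralizer ({e 1} : Set G)) ≤ 1920)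
  (hone : ∀ x y : G, orderOf x = 2 → orderOf y = 2 → IsConj x y)
  (hG : Nat.card G = 50232960)

include hmul h0 in
theorem e_inv (j : ℕ) (hj : j < 1920) : (e j)⁻¹ = e (fInv j) := by
  obtain ⟨h1, h2, -, -⟩ := fInv_spec j hj
  have h3 : e j * e (fInv j) = 1 := by rw [hmul j hj _ h2, h1, h0]
  exact (eq_inv_of_mul_eq_one_right h3).symm

include hmul hinj h0 in
theorem e_invol (u : ℕ) (hu : u < 1920) (h2 : mulI u u = 0) (h1 : u ≠ 0) :
    orderOf (e u) = 2 := by
  have : Fact (Nat.Prime 2) := ⟨Nat.prime_two⟩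
  apply orderOf_eq_prime
  · rw [pow_two, hmul u hu u hu, h2, h0]
  · intro h
    rw [← h0] at h
    exact h1 (hinj u hu 0 (by norm_num) h)

include hmul hinj h0 hcard hone hG in
/-- the 2-fusion system is simple -/
theorem fus_simple (S : Sylow 2 G) : (Cfsg.groupFusionSystem (S : Subgroup G)).IsSimple 2 := by
  classical
  have hprime : Fact (Nat.Prime 2) := ⟨Nat.prime_two⟩
  -- the centraliser of the involution
  have hmemC : ∀ j < 1920, e j ∈ Subgroup.centralizer ({e 1} : Set G) := by
    intro j hj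
    rw [Subgroup.mem_centralizer_iff]
    intro h hh
    rw [Set.mem_singleton_iff] at hh
    rw [hh, hmul 1 (by norm_num) j hj, hmul j hj 1 (by norm_num), mulI_comm_t j hj]
  have hel_inj : Function.Injective
      (fun j : Fin 1920 => (⟨e j.val, hmemC j.val j.isLt⟩ : Subgroup.centralizer ({e 1} : Set G))) := by
    intro a b hab
    have := congrArg Subtype.val hab
    exact Fin.ext (hinj a.val a.isLt b.val b.isLt this)
  have hel_bij := hel_inj.bijective_of_nat_card_le (by rw [Nat.card_fin]; exact hcard)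
  have hCsub : ∀ c ∈ Subgroup.centralizer ({e 1} : Set G), ∃ j < 1920, e j = c := by
    intro c hc
    obtain ⟨j, hj⟩ := hel_bij.2 ⟨c, hc⟩
    exact ⟨j.val, j.isLt, congrArg Subtype.val hj⟩
  -- the normal 2-subgroup and the Sylow subgroup
  obtain ⟨E, hEmem⟩ : ∃ E : Subgroup G, ∀ g, g ∈ E ↔ ∃ j < 32, e j = g := by
    refine ⟨subOf e hmul h0 (fun j => Nat.blt j 32)
      (fun i _ j _ hi hj => by
        have := mulI_Q_lt i j (blt_lt hi) (blt_lt hj)
        simpa [Nat.blt_eq] using this)
      (by decide)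
      (fun i hi hp => by
        have := (fInv_spec i hi).2.2.1 (blt_lt hp)
        simpa [Nat.blt_eq] using this), ?_⟩
    intro g
    rw [mem_subOf]
    constructor
    · rintro ⟨j, -, hp, rfl⟩
      exact ⟨j, blt_lt hp, rfl⟩
    · rintro ⟨j, hj, rfl⟩
      exact ⟨j, by omega, by simpa [Nat.blt_eq] using hj, rfl⟩
  obtain ⟨P, hPmem⟩ : ∃ P : Subgroup G, ∀ g, g ∈ P ↔ ∃ j < 1920, inP j = true ∧ e j = g :=
    ⟨subOf e hmul h0 inP (fun i hi j hj => inP_mul i j hi hj) (by decide) (fun i hi hp => (fInv_spec i hi).2.2.2 hp),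
      fun g => mem_subOf _ _ _ _ _ _ _ g⟩
  have hPcard : Nat.card P = 2 ^ 7 := by
    have hset : (P : Set G) =
        ↑(((Finset.range 1920).filter (fun j => inP j = true)).image e) := by
      ext g
      simp only [Finset.coe_image, Finset.coe_filter, Finset.mem_range, Set.mem_image,
        Set.mem_ofPred_eq, SetLike.mem_coe]
      rw [hPmem]
      constructor
      · rintro ⟨j, hj, hp, rfl⟩
        exact ⟨j, ⟨hj, hp⟩, rfl⟩
      · rintro ⟨j, ⟨hj, hp⟩, rfl⟩
        exact ⟨j, hj, hp, rfl⟩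
    have h1 : Nat.card P = Set.ncard (P : Set G) := Nat.card_coe_set_eq (P : Set G)
    rw [h1, hset, Set.ncard_coe_finset, Finset.card_image_of_injOn, inP_card]
    · norm_num
    · intro a ha b hb hab
      simp only [Finset.coe_filter, Finset.mem_range, Set.mem_ofPred_eq] at ha hb
      exact hinj a ha.1 b hb.1 hab
  obtain ⟨P', hP'⟩ := exists_sylow_of_card 2 7 P hPcard (by rw [hG]; norm_num)
  have hEP : E ≤ P := by
    intro g hg
    obtain ⟨q, hq, rfl⟩ := (hEmem g).mp hg
    exact (hPmem _).mpr ⟨q, by omega, inP_of_lt q hq, rfl⟩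
  have he1P : e 1 ∈ P := (hPmem _).mpr ⟨1, by norm_num, by decide, rfl⟩
  have he1 : e 1 ≠ 1 := by
    intro h
    rw [← h0] at h
    exact absurd (hinj 1 (by norm_num) 0 (by norm_num) h) (by norm_num)
  refine isSimple_of_sylow_gens 2 P' ?_ ?_ ?_ S
  · rw [hP']
    intro hbot
    rw [hbot, Subgroup.mem_bot] at he1P
    exact he1 he1P
  · rw [hP']
    intro T hTP hT1 hcl
    have hPp : IsPGroup 2 P := IsPGroup.of_card hPcard
    obtain ⟨t, htT, ht2⟩ := exists_mem_orderOf_two_of_ne_bot hPp hTP hT1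
    have hinvT : ∀ u < 1920, inP u = true → mulI u u = 0 → u ≠ 0 → e u ∈ T := by
      intro u hu hpu h2 h1
      have ho := e_invol e hmul hinj h0 u hu h2 h1
      obtain ⟨c, hc⟩ := isConj_iff.mp (hone t (e u) ht2 ho)
      have h3 := hcl t htT c (by rw [hc]; exact (hPmem _).mpr ⟨u, hu, hpu, rfl⟩)
      rwa [hc] at h3
    have hall : ∀ n, ∀ j < 1920, inP j = true → fRk j = n → e j ∈ T := by
      intro n
      induction n using Nat.strong_induction_on with
      | _ n ih =>
        intro j hj hpj hrk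
        by_cases hj0 : j = 0
        · rw [hj0, h0]
          exact T.one_mem
        · obtain ⟨h1, h2, h3, h4, h5, h6, h7⟩ := tree_spec j hj hj0
          obtain ⟨h8, h9⟩ := h7 hpj
          rw [← h1, ← hmul _ h4 _ h5]
          exact T.mul_mem (hinvT _ h4 h8 h2 h3) (ih (fRk (fPp j)) (by omega) _ h5 h9 rfl)
    apply le_antisymm hTP
    intro g hg
    obtain ⟨j, hj, hpj, rfl⟩ := (hPmem g).mp hg
    exact hall _ j hj hpj rfl
  · rw [hP']
    intro m hm
    apply Subgroup.subset_closure
    have hnormE : ∀ j < 1920, e j ∈ Subgroup.normalizer (E : Set G) := by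
      intro j hj
      apply mem_normalizer_of_finite
      intro x hx
      obtain ⟨q, hq, rfl⟩ := (hEmem x).mp hx
      obtain ⟨-, hi2, -, -⟩ := fInv_spec j hj
      rw [e_inv e hmul h0 j hj, hmul j hj q (by omega),
        hmul _ (mulI_lt _ _ hj (by omega)) _ hi2]
      exact (hEmem _).mpr ⟨_, norm_spec j hj q hq, rfl⟩
    have hPN : P ≤ Subgroup.normalizer (E : Set G) := by
      intro g hg
      obtain ⟨j, hj, -, rfl⟩ := (hPmem g).mp hg
      exact hnormE j hj
    have hCE : Subgroup.centralizer (E : Set G) ≤ E := by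
      intro g hg
      have hg1 : g ∈ Subgroup.centralizer ({e 1} : Set G) := by
        rw [Subgroup.mem_centralizer_iff] at hg ⊢
        intro h hh
        rw [Set.mem_singleton_iff] at hh
        rw [hh]
        exact hg (e 1) ((hEmem _).mpr ⟨1, by norm_num, rfl⟩)
      obtain ⟨j, hj, rfl⟩ := hCsub g hg1
      have hcomm : ∀ q < 32, mulI j q = mulI q j := by
        intro q hq
        have h1 := (Subgroup.mem_centralizer_iff.mp hg) (e q) ((hEmem _).mpr ⟨q, hq, rfl⟩)
        rw [hmul q (by omega) j hj, hmul j hj q (by omega)] at h1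
        exact (hinj _ (mulI_lt _ _ (by omega) hj) _ (mulI_lt _ _ hj (by omega)) h1).symm
      exact (hEmem _).mpr ⟨j, wq_spec j hj hcomm, rfl⟩
    have hm1 : m ∈ Subgroup.centralizer ({e 1} : Set G) := by
      have hc : m * e 1 * m⁻¹ ∈ P := ((Subgroup.mem_normalizer_iff.mp hm) (e 1)).mp he1P
      obtain ⟨j, hj, hpj, hje⟩ := (hPmem _).mp hc
      have hcomm : ∀ q < 32, mulI j q = mulI q j := by
        intro q hq
        have hq' : m⁻¹ * e q * m ∈ P := by
          have h2 := ((Subgroup.mem_normalizer_iff.mp (Subgroup.inv_mem _ hm)) (e q)).mp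
            ((hPmem _).mpr ⟨q, by omega, inP_of_lt q hq, rfl⟩)
          simpa using h2
        obtain ⟨k, hk, -, hke⟩ := (hPmem _).mp hq'
        have hcen := hmemC k hk
        rw [Subgroup.mem_centralizer_iff] at hcen
        have h3 : e 1 * e k = e k * e 1 := hcen (e 1) rfl
        have h4 : e j * e q = e q * e j := by
          rw [hje]
          have h5 : e q = m * e k * m⁻¹ := by rw [hke]; group
          rw [h5]
          calc m * e 1 * m⁻¹ * (m * e k * m⁻¹) = m * (e 1 * e k) * m⁻¹ := by group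
            _ = m * (e k * e 1) * m⁻¹ := by rw [h3]
            _ = m * e k * m⁻¹ * (m * e 1 * m⁻¹) := by group
        rw [hmul j hj q (by omega), hmul q (by omega) j hj] at h4
        exact hinj _ (mulI_lt _ _ hj (by omega)) _ (mulI_lt _ _ (by omega) hj) h4
      have hj32 : j < 32 := wq_spec j hj hcomm
      have hj2 : j < 2 := mulI_Q_cen j hj32 hcomm
      have hj1 : j = 1 := by
        rcases Nat.lt_or_ge j 1 with h | h
        · exfalso
          have hj0 : j = 0 := by omega
          rw [hj0, h0] at hje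
          apply he1
          have h5 : e 1 = m⁻¹ * (m * e 1 * m⁻¹) * m := by group
          rw [h5, ← hje]
          group
        · omega
      rw [hj1] at hje
      rw [Subgroup.mem_centralizer_iff]
      intro h hh
      rw [Set.mem_singleton_iff] at hh
      rw [hh]
      have h6 : m * e 1 = e 1 * m := by
        calc m * e 1 = (m * e 1 * m⁻¹) * m := by group
          _ = e 1 * m := by rw [← hje]
      exact h6.symm
    obtain ⟨j, hj, rfl⟩ := hCsub m hm1
    have hgen : ∀ n, ∀ j < 1920, fRk j = n → e j ∈ Subgroup.closure (pElts 2 E) := by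
      intro n
      induction n using Nat.strong_induction_on with
      | _ n ih =>
        intro j hj hrk
        by_cases hj0 : j = 0
        · rw [hj0, h0]
          exact Subgroup.one_mem _
        · obtain ⟨h1, h2, h3, h4, h5, h6, -⟩ := tree_spec j hj hj0
          rw [← h1, ← hmul _ h4 _ h5]
          refine Subgroup.mul_mem _ (Subgroup.subset_closure ⟨hnormE _ h4, 1, ?_⟩)
            (ih (fRk (fPp j)) (by omega) _ h5 rfl)
          rw [pow_one]
          exact e_invol e hmul hinj h0 _ h4 h2 h3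
    exact ⟨hm, E, hEP, hPN, hCE, hgen _ j hj rfl⟩

end Fus

end Cfsg.Agent.Lib.Helper60.J3
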