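import Cfsg.Agent.Lib.Helper60.J3.Fus
import Cfsg.Agent.Lib.Helper60.J3.Cen
import Cfsg.Agent.Lib.Helper60.J3.Trans

/-!
The 2-fusion system of a group isomorphic to `J₃` is simple.
-/

set_option autoImplicit false

namespace Cfsg.Agent.Lib.Helper60.J3

open Cfsg

section
variable {𝒢 : Type*} [Group 𝒢] {ψ : 𝒢 →* Mat} (hψ : Function.Injective ψ) {x y : 𝒢}
  (hx : ψ x = toMat Xp) (hy : ψ y = toMat Yp)

include hψ hx hy in
/-- the enumeration of the centraliser of an involution of the central quotient -/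
theorem cen_table : ∃ e : ℕ → Hg x y ⧸ Zg ψ x y,
    (∀ i < 1920, ∀ j < 1920, e i * e j = e (mulI i j)) ∧
    (∀ i < 1920, ∀ j < 1920, e i = e j → i = j) ∧ e 0 = 1 ∧
    Nat.card (Subgroup.centralizer ({e 1} : Set (Hg x y ⧸ Zg ψ x y))) ≤ 1920 := by
  have hfin := Hg_finite hψ hx hy
  obtain ⟨hH, hHv⟩ := exists_fam (ψ := ψ) (x := x) (y := y) cH 60 (fun a ha => cH_real hx hy a ha)
  obtain ⟨hQ, hQv⟩ := exists_fam (ψ := ψ) (x := x) (y := y) cQ 32 (fun q hq => cQ_real hx hy q hq)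
  obtain ⟨e, hedef⟩ : ∃ e : ℕ → Hg x y ⧸ Zg ψ x y,
      ∀ j, e j = QuotientGroup.mk' (Zg ψ x y) (hH (j / 32) * hQ (j % 32)) := ⟨_, fun _ => rfl⟩
  have hmul : ∀ i < 1920, ∀ j < 1920, e i * e j = e (mulI i j) := by
    intro i hi j hj
    rw [hedef, hedef, hedef, ← map_mul, cen_mul hψ hH hQ hHv hQv i j hi hj]
  have hinj : ∀ i < 1920, ∀ j < 1920, e i = e j → i = j := by
    intro i hi j hj h
    rw [hedef, hedef] at h
    exact cen_inj hψ hH hQ hHv hQv i j hi hj h
  have h0 : e 0 = 1 := by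
    have h1 : hH (0 / 32) * hQ (0 % 32) = 1 := by
      apply Subtype.ext
      apply hψ
      rw [Subgroup.coe_mul, map_mul, hHv (0 / 32) (by norm_num), hQv (0 % 32) (by norm_num)]
      show toMat (cH 0) * toMat (cQ 0) = ψ ((1 : Hg x y) : 𝒢)
      rw [cH_zero, cQ_zero, toMat_oneP, one_mul, Subgroup.coe_one, map_one]
    rw [hedef, h1, map_one]
  have hr0 : ψ ((hH (1 / 32) * hQ (1 % 32) : Hg x y) : 𝒢) = toMat (getR 0) := by
    rw [Subgroup.coe_mul, map_mul, hHv (1 / 32) (by norm_num), hQv (1 % 32) (by norm_num)]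
    show toMat (cH 0) * toMat (cQ 1) = toMat (getR 0)
    rw [cH_zero, cQ_one, toMat_oneP, one_mul]
  have hcard : Nat.card (Subgroup.centralizer ({e 1} : Set (Hg x y ⧸ Zg ψ x y))) ≤ 1920 := by
    rw [hedef]
    exact cen_card_le hψ hx hy _ hr0
  exact ⟨e, hmul, hinj, h0, hcard⟩

include hψ hx hy in
/-- the 2-fusion system of a group isomorphic to the central quotient is simple -/
theorem fus_Zg {G : Type*} [Group G] [Finite G] (f : G ≃* (Hg x y ⧸ Zg ψ x y))
    (S : Sylow 2 G) : (Cfsg.groupFusionSystem (S : Subgroup G)).IsSimple 2 := by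
  obtain ⟨e, hmul, hinj, h0, hcard⟩ := cen_table hψ hx hy
  have hone := (cen_Zg hψ hx hy).1
  have hQcard := card_Qg hψ hx hy
  refine fus_simple (fun j => f.symm (e j)) ?_ ?_ ?_ ?_ ?_ ?_ S
  · intro i hi j hj
    show f.symm (e i) * f.symm (e j) = f.symm (e (mulI i j))
    rw [← map_mul, hmul i hi j hj]
  · intro i hi j hj h
    exact hinj i hi j hj (f.symm.injective h)
  · show f.symm (e 0) = 1
    rw [h0, map_one]
  · show Nat.card (Subgroup.centralizer ({f.symm (e 1)} : Set G)) ≤ 1920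
    have hfinQ : Finite (Hg x y ⧸ Zg ψ x y) := Finite.of_equiv G f.toEquiv
    have hmem : ∀ c : Subgroup.centralizer ({f.symm (e 1)} : Set G),
        f (c : G) ∈ Subgroup.centralizer ({e 1} : Set (Hg x y ⧸ Zg ψ x y)) := by
      intro c
      have hc := c.2
      rw [Subgroup.mem_centralizer_iff] at hc ⊢
      intro h hh
      rw [Set.mem_singleton_iff] at hh
      have h1 := hc (f.symm (e 1)) rfl
      have h2 := congrArg f h1
      rw [map_mul, map_mul, MulEquiv.apply_symm_apply] at h2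
      rw [hh]
      exact h2
    have hinj' : Function.Injective
        (fun c : Subgroup.centralizer ({f.symm (e 1)} : Set G) =>
          (⟨f (c : G), hmem c⟩ : Subgroup.centralizer ({e 1} : Set (Hg x y ⧸ Zg ψ x y)))) := by
      intro a b hab
      have h1 := congrArg Subtype.val hab
      exact Subtype.ext (f.injective h1)
    exact (Nat.card_le_card_of_injective _ hinj').trans hcard
  · intro a b ha hb
    have ha' : orderOf (f a) = 2 := by rw [MulEquiv.orderOf_eq]; exact ha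
    have hb' : orderOf (f b) = 2 := by rw [MulEquiv.orderOf_eq]; exact hb
    obtain ⟨c, hc⟩ := isConj_iff.mp (hone (f a) (f b) ha' hb')
    refine isConj_iff.mpr ⟨f.symm c, ?_⟩
    apply f.injective
    rw [map_mul, map_mul, map_inv, MulEquiv.apply_symm_apply, hc]
  · rw [Nat.card_congr f.toEquiv, hQcard]

end

section Trans
variable {F : Type*} [Field F]

/-- the 2-fusion system of a group isomorphic to `J₃` is simple -/
theorem fus_J3 [Fintype F] (hF : Fintype.card F = 4) (ω : F) (hω : ω ^ 2 + ω + 1 = 0)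
    {G : Type*} [Group G] [Finite G] (f : G ≃* Cfsg.Spor.J3 F ω) (S : Sylow 2 G) :
    (Cfsg.groupFusionSystem (S : Subgroup G)).IsSimple 2 := by
  obtain ⟨φ, hφ⟩ := exists_iso hF ω hω
  have key : ∀ T : Subgroup (Matrix.GeneralLinearGroup Cfsg.Spor.F9 F),
      T = Hg (xT φ) (yT φ) → ∀ f : G ≃* (T ⧸ Subgroup.center T),
        (Cfsg.groupFusionSystem (S : Subgroup G)).IsSimple 2 := by
    rintro T rfl f
    have key2 : ∀ (N : Subgroup (Hg (xT φ) (yT φ))) [N.Normal],
        N = Zg (ψM φ) (xT φ) (yT φ) → ∀ f : G ≃* (Hg (xT φ) (yT φ) ⧸ N),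
          (Cfsg.groupFusionSystem (S : Subgroup G)).IsSimple 2 := by
      rintro N hN rfl f
      exact fus_Zg (ψM_inj φ) (ψM_xT φ) (ψM_yT φ) f S
    exact key2 _ (Zg_eq_center (ψM_inj φ) (ψM_xT φ) (ψM_yT φ)).symm f
  exact key _ (threeJ3_eq φ ω hφ) f

end Trans

end Cfsg.Agent.Lib.Helper60.J3
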